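/-
A strengthening of Bertrand's postulate: for `m ≥ 17` there are two primes in `(m / 2, m]` at
distance at least three.
-/
import Mathlib

set_option autoImplicit false

namespace CfsgLib.FgsH2

open Nat

theorem centralBinom_le_of_card_le (n c : ℕ) (n_large : 2 < n)
    (hc : ((Finset.range (2 * n + 1)).filter fun p => p.Prime ∧ n < p).card ≤ c) :
    centralBinom n ≤ (2 * n) ^ sqrt (2 * n) * 4 ^ (2 * n / 3) * (2 * n) ^ c := by
  have n_pos : 0 < n := (Nat.zero_le _).trans_lt n_large
  have n2_pos : 1 ≤ 2 * n := mul_pos (zero_lt_two' ℕ) n_pos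
  let S := {p ∈ Finset.range (2 * n / 3 + 1) | Nat.Prime p}
  let T := (Finset.range (2 * n + 1)).filter fun p => p.Prime ∧ n < p
  let f x := x ^ n.centralBinom.factorization x
  have hdisj : Disjoint S T := by
    rw [Finset.disjoint_left]
    intro x hx hx'
    simp only [S, T, Finset.mem_filter, Finset.mem_range] at hx hx'
    omega
  have h1 : centralBinom n = (∏ x ∈ S, f x) * ∏ x ∈ T, f x := by
    rw [← Finset.prod_union hdisj]
    refine (Eq.trans ?_ n.prod_pow_factorization_centralBinom).symm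
    apply Finset.prod_subset
    · intro x hx
      simp only [S, T, Finset.mem_union, Finset.mem_filter, Finset.mem_range] at hx ⊢
      omega
    intro x hx h2x
    dsimp only [f]
    by_cases hp : x.Prime
    · simp only [S, T, Finset.mem_union, Finset.mem_filter, Finset.mem_range, hp, and_true,
        true_and] at hx h2x
      rw [factorization_centralBinom_of_two_mul_self_lt_three_mul n_large (by omega) (by omega),
        Nat.pow_zero]
    · rw [factorization_eq_zero_of_not_prime n.centralBinom hp, Nat.pow_zero]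
  rw [h1, ← Finset.prod_filter_mul_prod_filter_not S (· ≤ sqrt (2 * n))]
  refine mul_le_mul' (mul_le_mul' ?_ ?_) ?_
  · refine (Finset.prod_le_prod' fun p _ => (?_ : f p ≤ 2 * n)).trans ?_
    · exact pow_factorization_choose_le (mul_pos two_pos n_pos)
    have : (Finset.Icc 1 (sqrt (2 * n))).card = sqrt (2 * n) := by rw [card_Icc, Nat.add_sub_cancel]
    rw [Finset.prod_const]
    refine pow_right_mono₀ n2_pos ((Finset.card_le_card fun x hx => ?_).trans this.le)
    obtain ⟨h1, h2⟩ := Finset.mem_filter.1 hx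
    exact Finset.mem_Icc.mpr ⟨(Finset.mem_filter.1 h1).2.one_lt.le, h2⟩
  · refine le_trans ?_ (primorial_le_four_pow (2 * n / 3))
    refine (Finset.prod_le_prod' fun p hp => (?_ : f p ≤ p)).trans ?_
    · obtain ⟨h1, h2⟩ := Finset.mem_filter.1 hp
      refine (pow_right_mono₀ (Finset.mem_filter.1 h1).2.one_lt.le ?_).trans (pow_one p).le
      exact Nat.factorization_choose_le_one (sqrt_lt'.mp <| not_le.1 h2)
    refine Finset.prod_le_prod_of_subset_of_one_le' (Finset.filter_subset _ _) ?_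
    exact fun p hp _ => (Finset.mem_filter.1 hp).2.one_lt.le
  · refine (Finset.prod_le_prod' fun p _ => (?_ : f p ≤ 2 * n)).trans ?_
    · exact pow_factorization_choose_le (mul_pos two_pos n_pos)
    rw [Finset.prod_const]
    exact pow_right_mono₀ n2_pos hc

theorem main_ineq {n : ℕ} (hn : 1152 ≤ n) :
    n * ((2 * n) ^ sqrt (2 * n) * 4 ^ (2 * n / 3) * (2 * n) ^ 3) ≤ 4 ^ n := by
  set s := sqrt (2 * n) with hs
  have h1 : s * s ≤ 2 * n := sqrt_le _
  have h2 : 2 * n < (s + 1) * (s + 1) := lt_succ_sqrt _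
  have h3 : 48 ≤ s := by
    by_contra h
    have : (s + 1) * (s + 1) ≤ 48 * 48 := Nat.mul_le_mul (by omega) (by omega)
    omega
  have h4 : ∀ k, 6 ≤ k → 8 * k + 8 ≤ 2 ^ k := by
    intro k hk
    induction k, hk using Nat.le_induction with
    | base => norm_num
    | succ k hk ih => rw [pow_succ]; omega
  have h5 : s + 1 ≤ 2 ^ (s / 8) := le_trans (by omega) (h4 (s / 8) (by omega))
  have h6 : 2 * n ≤ 4 ^ (s / 8) := by
    calc 2 * n ≤ (s + 1) * (s + 1) := h2.le
      _ ≤ 2 ^ (s / 8) * 2 ^ (s / 8) := Nat.mul_le_mul h5 h5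
      _ = 4 ^ (s / 8) := by rw [← mul_pow]; norm_num
  have h7 : s / 8 * (s + 4) + 2 * n / 3 ≤ n := by
    have a1 : 8 * (s / 8) ≤ s := Nat.mul_div_le _ _
    have a2 : 8 * (s / 8 * (s + 4)) ≤ s * (s + 4) := by
      rw [← mul_assoc]; exact Nat.mul_le_mul_right _ a1
    have a3 : 48 * s ≤ s * s := Nat.mul_le_mul_right _ h3
    have a4 : s * (s + 4) = s * s + 4 * s := by ring
    omega
  calc n * ((2 * n) ^ s * 4 ^ (2 * n / 3) * (2 * n) ^ 3)
      ≤ (2 * n) * ((2 * n) ^ s * 4 ^ (2 * n / 3) * (2 * n) ^ 3) :=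
        Nat.mul_le_mul_right _ (by omega)
    _ = (2 * n) ^ (s + 4) * 4 ^ (2 * n / 3) := by ring
    _ ≤ (4 ^ (s / 8)) ^ (s + 4) * 4 ^ (2 * n / 3) :=
        Nat.mul_le_mul_right _ (Nat.pow_le_pow_left h6 _)
    _ = 4 ^ (s / 8 * (s + 4) + 2 * n / 3) := by rw [← pow_mul, ← pow_add]
    _ ≤ 4 ^ n := Nat.pow_le_pow_right (by norm_num) h7

theorem exists_two_primes_large {n : ℕ} (hn : 1152 ≤ n) :
    ∃ p q : ℕ, p.Prime ∧ q.Prime ∧ n < p ∧ p + 3 ≤ q ∧ q ≤ 2 * n := by
  by_contra hcon
  push Not at hcon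
  have h1 : 4 ^ n < n * n.centralBinom := Nat.four_pow_lt_mul_centralBinom n (by omega)
  have hc : ((Finset.range (2 * n + 1)).filter fun p => p.Prime ∧ n < p).card ≤ 3 := by
    rcases ((Finset.range (2 * n + 1)).filter fun p => p.Prime ∧ n < p).eq_empty_or_nonempty with
      h | h
    · rw [h]; simp
    · obtain ⟨p0, hm, hle⟩ := Finset.exists_min_image _ id h
      refine (Finset.card_le_card (t := Finset.Ico p0 (p0 + 3)) fun x hx => ?_).trans (by simp)
      have h2 : p0 ≤ x := hle x hx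
      simp only [Finset.mem_filter, Finset.mem_range] at hm hx
      rw [Finset.mem_Ico]
      refine ⟨h2, ?_⟩
      by_contra h3
      have := hcon p0 x hm.2.1 hx.2.1 hm.2.2 (by omega)
      omega
  have h2 := centralBinom_le_of_card_le n 3 (by omega) hc
  have h3 := main_ineq hn
  have h4 := Nat.mul_le_mul_left n h2
  omega

/-- For `m ≥ 17` there are primes `m / 2 < p ≤ q - 3`, `q ≤ m`. -/
theorem exists_two_primes {m : ℕ} (hm : 17 ≤ m) :
    ∃ p q : ℕ, p.Prime ∧ q.Prime ∧ m < 2 * p ∧ p + 3 ≤ q ∧ q ≤ m := by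
  by_cases h1 : m ≤ 21
  · exact ⟨11, 17, by norm_num, by norm_num, by omega, by omega, by omega⟩
  by_cases h2 : m ≤ 25
  · exact ⟨13, 19, by norm_num, by norm_num, by omega, by omega, by omega⟩
  by_cases h3 : m ≤ 33
  · exact ⟨17, 23, by norm_num, by norm_num, by omega, by omega, by omega⟩
  by_cases h4 : m ≤ 45
  · exact ⟨23, 31, by norm_num, by norm_num, by omega, by omega, by omega⟩
  by_cases h5 : m ≤ 73
  · exact ⟨37, 43, by norm_num, by norm_num, by omega, by omega, by omega⟩
  by_cases h6 : m ≤ 121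
  · exact ⟨61, 73, by norm_num, by norm_num, by omega, by omega, by omega⟩
  by_cases h7 : m ≤ 205
  · exact ⟨103, 113, by norm_num, by norm_num, by omega, by omega, by omega⟩
  by_cases h8 : m ≤ 385
  · exact ⟨193, 199, by norm_num, by norm_num, by omega, by omega, by omega⟩
  by_cases h9 : m ≤ 745
  · exact ⟨373, 379, by norm_num, by norm_num, by omega, by omega, by omega⟩
  by_cases h10 : m ≤ 1465
  · exact ⟨733, 739, by norm_num, by norm_num, by omega, by omega, by omega⟩
  by_cases h11 : m ≤ 2893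
  · exact ⟨1447, 1453, by norm_num, by norm_num, by omega, by omega, by omega⟩
  obtain ⟨p, q, hp, hq, a1, a2, a3⟩ := exists_two_primes_large (n := m / 2) (by omega)
  exact ⟨p, q, hp, hq, by omega, a2, by omega⟩

end CfsgLib.FgsH2
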